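import Cfsg.Agent.GlaubermanZJ.Centers
import Cfsg.Agent.ConjFunctor.SylowIn

/-!
Quadratic elements on a section `B/N₀`: from an amalgam of a subgroup `K` with elements normalizing its Sylow
subgroup, or from Glauberman's replacement theorem.
-/

set_option autoImplicit false

namespace CfsgLib.ZJFailure

open Cfsg
open CfsgLib.ConjFunctor
open CfsgLib.GlaubermanZJ

variable {G : Type*} [Group G]

/-- The products of a given length alternating between `K` and `N`. -/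
def altProd (K N : Subgroup G) : ℕ → Set G
  | 0 => (K : Set G)
  | m + 1 => {g | ∃ k ∈ K, ∃ n ∈ N, ∃ g' ∈ altProd K N m, g = k * n * g'}

variable {K N : Subgroup G}

theorem altProd_mul_left : ∀ (m : ℕ) {g k : G}, g ∈ altProd K N m → k ∈ K → k * g ∈ altProd K N m
  | 0, _, _, hg, hk => K.mul_mem hk hg
  | m + 1, _, k, ⟨k', hk', n, hn, g', hg', rfl⟩, hk =>
    ⟨k * k', mul_mem hk hk', n, hn, g', hg', by simp only [mul_assoc]⟩

theorem altProd_mul_K : ∀ (m : ℕ) {g k : G}, g ∈ altProd K N m → k ∈ K → g * k ∈ altProd K N m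
  | 0, _, _, hg, hk => K.mul_mem hg hk
  | m + 1, _, k, ⟨k', hk', n, hn, g', hg', rfl⟩, hk =>
    ⟨k', hk', n, hn, g' * k, altProd_mul_K m hg' hk, by simp only [mul_assoc]⟩

theorem altProd_mul_N : ∀ (m : ℕ) {g n : G}, g ∈ altProd K N m → n ∈ N → g * n ∈ altProd K N (m + 1)
  | 0, g, n, hg, hn => ⟨g, hg, n, hn, 1, one_mem K, (mul_one _).symm⟩
  | m + 1, _, n, ⟨k', hk', n', hn', g', hg', rfl⟩, hn =>
    ⟨k', hk', n', hn', g' * n, altProd_mul_N m hg' hn, by simp only [mul_assoc]⟩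

theorem altProd_inv : ∀ (m : ℕ) {g : G}, g ∈ altProd K N m → g⁻¹ ∈ altProd K N m
  | 0, _, hg => K.inv_mem hg
  | m + 1, _, ⟨k, hk, n, hn, g', hg', rfl⟩ => by
    rw [mul_inv_rev, mul_inv_rev, ← mul_assoc]
    exact altProd_mul_K _ (altProd_mul_N _ (altProd_inv m hg') (inv_mem hn)) (inv_mem hk)

theorem altProd_le {M : Subgroup G} (hK : K ≤ M) (hN : N ≤ M) : ∀ (m : ℕ) {g : G}, g ∈ altProd K N m → g ∈ M
  | 0, _, hg => hK hg
  | m + 1, _, ⟨_, hk, _, hn, _, hg', rfl⟩ => mul_mem (mul_mem (hK hk) (hN hn)) (altProd_le hK hN m hg')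

theorem exists_altProd {g : G} (hg : g ∈ Subgroup.closure ((K : Set G) ∪ N)) : ∃ m, g ∈ altProd K N m := by
  have step : ∀ y ∈ ((K : Set G) ∪ N), ∀ x : G, (∃ m, x ∈ altProd K N m) → ∃ m, x * y ∈ altProd K N m := by
    rintro y (hy | hy) x ⟨m, hm⟩
    · exact ⟨m, altProd_mul_K m hm hy⟩
    · exact ⟨m + 1, altProd_mul_N m hm hy⟩
  induction hg using Subgroup.closure_induction_right with
  | one => exact ⟨0, one_mem K⟩
  | mul_right x y hx hy ih => exact step _ hy _ ih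
  | mul_inv_cancel x y hx hy ih =>
    refine step _ ?_ _ ih
    rcases hy with hy | hy
    · exact Or.inl (K.inv_mem hy)
    · exact Or.inr (N.inv_mem hy)

set_option maxHeartbeats 400000 in
/-- Either every conjugate of `B` under `⟨K, N⟩` stays in `O`, or some element outside `O` is quadratic. -/
theorem quadratic_or_invariant {R B O N₀ : Subgroup G} (hBO : B ≤ O) (hOR : O ≤ R) (hRK : R ≤ K)
    (hKB : K ≤ Subgroup.normalizer (B : Set G)) (hKO : K ≤ Subgroup.normalizer (O : Set G))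
    (hKN₀ : K ≤ Subgroup.normalizer (N₀ : Set G)) (hNR : N ≤ Subgroup.normalizer (R : Set G))
    (hNN₀ : N ≤ Subgroup.normalizer (N₀ : Set G)) (hcomm : ∀ a ∈ B, ∀ b ∈ B, a * b * a⁻¹ * b⁻¹ ∈ N₀) :
    (∀ g ∈ K ⊔ N, conjOf g B ≤ O) ∨
      ∃ x ∈ R, x ∉ O ∧ ∀ b ∈ B, x * (x * b * x⁻¹ * b⁻¹) * x⁻¹ * (x * b * x⁻¹ * b⁻¹)⁻¹ ∈ N₀ := by
  classical
  by_cases hall : ∀ m, ∀ g ∈ altProd K N m, conjOf g B ≤ O
  · refine Or.inl fun g hg => ?_
    rw [Subgroup.sup_eq_closure] at hg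
    obtain ⟨m, hm⟩ := exists_altProd hg
    exact hall m g hm
  refine Or.inr ?_
  push Not at hall
  obtain ⟨g, hg, hgO⟩ := Nat.find_spec hall
  have hlow : ∀ j < Nat.find hall, ∀ g ∈ altProd K N j, conjOf g B ≤ O := fun j hj g hg => by
    by_contra h
    exact Nat.find_min hall hj ⟨g, hg, h⟩
  obtain ⟨m, hm⟩ : ∃ m, Nat.find hall = m + 1 := by
    refine ⟨Nat.find hall - 1, (Nat.succ_pred_eq_of_pos (Nat.pos_of_ne_zero fun h => ?_)).symm⟩
    rw [h] at hg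
    exact hgO ((mem_normalizer_iff_conjOf.mp (hKB hg)).le.trans hBO)
  rw [hm] at hg
  obtain ⟨k₁, hk₁, n₁, hn₁, g₂, hg₂, rfl⟩ := hg
  have hOm : ∀ g ∈ altProd K N m, conjOf g B ≤ O := hlow m (by omega)
  -- the conjugate inside `R`
  set g₁ := n₁ * g₂ with hg₁
  have hBR : conjOf g₁ B ≤ R := by
    rw [hg₁, ← conjOf_conjOf]
    exact (conjOf_mono ((hOm g₂ hg₂).trans hOR)).trans (mem_normalizer_iff_conjOf.mp (hNR hn₁)).le
  obtain ⟨x, hx, hxO⟩ := SetLike.not_le_iff_exists.mp hgO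
  have hx' : k₁⁻¹ * x * k₁ ∈ conjOf g₁ B := by
    have h := mem_conjOf.mp hx
    rw [mem_conjOf]
    simpa [hg₁, mul_assoc] using h
  have hx'O : k₁⁻¹ * x * k₁ ∉ O := fun h => hxO (by
    simpa [mul_assoc] using (Subgroup.mem_normalizer_iff.mp (hKO hk₁) _).mp h)
  refine ⟨_, hBR hx', hx'O, ?_⟩
  set x' := k₁⁻¹ * x * k₁ with hx'def
  -- `B` normalizes that conjugate
  have hBn : ∀ b ∈ B, b ∈ Subgroup.normalizer (conjOf g₁ B : Set G) := by
    have hg₁m : g₁ ∈ altProd K N (m + 1) := ⟨1, one_mem K, n₁, hn₁, g₂, hg₂, by rw [one_mul]⟩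
    obtain ⟨k, hk, n, hn, g₃, hg₃, hge⟩ := altProd_inv _ hg₁m
    intro b hb
    have h1 : g₃ * b * g₃⁻¹ ∈ R := hOR (hOm g₃ hg₃ (conj_mem_conjOf hb))
    have h2 : n * (g₃ * b * g₃⁻¹) * n⁻¹ ∈ R := (Subgroup.mem_normalizer_iff.mp (hNR hn) _).mp h1
    have h3 := hKB (hRK h2)
    have hgeq : g₁ = g₃⁻¹ * n⁻¹ * k⁻¹ := by
      rw [← inv_inv g₁, hge]
      simp only [mul_inv_rev, mul_assoc]
    rw [mem_normalizer_conjOf, hgeq]
    have h4 : k * (n * (g₃ * b * g₃⁻¹) * n⁻¹) * k⁻¹ ∈ Subgroup.normalizer (B : Set G) :=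
      mul_mem (mul_mem (hKB hk) h3) (inv_mem (hKB hk))
    simpa [mul_assoc] using h4
  have hg₁N₀ : g₁ ∈ Subgroup.normalizer (N₀ : Set G) :=
    mul_mem (hNN₀ hn₁) (altProd_le hKN₀ hNN₀ m hg₂)
  intro b hb
  have hxB : x' * b * x'⁻¹ * b⁻¹ ∈ conjOf g₁ B := by
    have h := (Subgroup.mem_normalizer_iff.mp (hBn b hb) x'⁻¹).mp (inv_mem hx')
    have h' := mul_mem hx' h
    simpa [mul_assoc] using h'
  obtain ⟨b₁, hb₁, hbe⟩ := hx'
  obtain ⟨b₂, hb₂, hbe₂⟩ := hxB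
  have e1 : x' = g₁ * b₁ * g₁⁻¹ := hbe.symm
  have e2 : x' * b * x'⁻¹ * b⁻¹ = g₁ * b₂ * g₁⁻¹ := hbe₂.symm
  rw [e2, e1]
  have := (Subgroup.mem_normalizer_iff.mp hg₁N₀ _).mp (hcomm b₁ hb₁ b₂ hb₂)
  simpa [mul_assoc] using this

/-- Glauberman's replacement gives a quadratic element outside `O`. -/
theorem quadratic_of_replacement [Finite G] {p : ℕ} [Fact p.Prime] (hp : p ≠ 2) {S K R B O N₀ Z : Subgroup G}
    (hZ : Z = centerThompsonAOf S) (hRS : R ≤ S) (hRp : IsPGroup p R)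
    (hmaxR : ∀ A ∈ maxIn (fun A : Subgroup G => IsMulCommutative A) S, A ≤ R)
    (hBO : B ≤ O) (hOR : O ≤ R) (hRK : R ≤ K) (hKB : K ≤ Subgroup.normalizer (B : Set G))
    (hKO : K ≤ Subgroup.normalizer (O : Set G)) (hN₀Z : N₀ ≤ Z) (hN₀B : N₀ ≤ B)
    (hKN₀ : K ≤ Subgroup.normalizer (N₀ : Set G)) (hcomm : ∀ a ∈ B, ∀ b ∈ B, a * b * a⁻¹ * b⁻¹ ∈ N₀)
    (hcent : ∀ a ∈ N₀, ∀ b ∈ B, a * b = b * a) {v : G} (hvZ : v ∈ Z)
    (hgen : B ≤ N₀ ⊔ Subgroup.closure {x | ∃ k ∈ K, x = k * v * k⁻¹})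
    (hmove : ∃ k ∈ K, k * v * k⁻¹ ∉ Z) :
    ∃ x ∈ R, x ∉ O ∧ ∀ b ∈ B, x * (x * b * x⁻¹ * b⁻¹) * x⁻¹ * (x * b * x⁻¹ * b⁻¹)⁻¹ ∈ N₀ := by
  classical
  set E : Subgroup G → Prop := fun A => IsMulCommutative A with hE
  have hEmap : ∀ (φ : G ≃* G) A, E A → E (A.map φ.toMonoidHom) := fun φ A h => isMulCommutative_map _ h
  have hEbot : E (⊥ : Subgroup G) := ⟨⟨fun a b => Subsingleton.elim _ _⟩⟩
  obtain ⟨A₁, hA₁⟩ := exists_maxIn hEbot S
  have hZeq : Z = sInf (maxIn E S) := by rw [hZ, centerThompsonAOf_eq_sInf]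
  have hZA : ∀ A ∈ maxIn E S, Z ≤ A := fun A hA => hZeq ▸ sInf_le hA
  have hOS : O ≤ S := hOR.trans hRS
  -- the intersection over the members in `O` is invariant
  have hinv : ∀ {k : G}, k ∈ K → k ∈ Subgroup.normalizer ((sInf (maxIn E O) : Subgroup G) : Set G) :=
    fun hk => normalizer_le_normalizer_sInf_maxIn hEmap O (hKO hk)
  have hex : ∃ A ∈ maxIn E S, ¬ A ≤ O := by
    by_contra hall
    simp only [not_exists, not_and, not_not] at hall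
    have heq : maxIn E O = maxIn E S := by
      refine Set.Subset.antisymm (maxIn_eq_of_subset hOS hA₁ (hall _ hA₁)) fun A hA => ?_
      exact ⟨hall _ hA, hA.2.1, fun C hC hCE => hA.2.2 C (hC.trans hOS) hCE⟩
    obtain ⟨k, hk, hkv⟩ := hmove
    have h := hinv hk
    rw [heq, ← hZeq] at h
    exact hkv ((Subgroup.mem_normalizer_iff.mp h v).mp hvZ)
  obtain ⟨A, ⟨hA, hAO⟩, hmax⟩ :=
    Set.exists_max_image {A | A ∈ maxIn E S ∧ ¬ A ≤ O} (fun A => Nat.card ↥(A ⊓ B)) (Set.toFinite _)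
      (by obtain ⟨A, h1, h2⟩ := hex; exact ⟨A, h1, h2⟩)
  have hAR := hmaxR A hA
  by_cases hBA : B ≤ Subgroup.normalizer (A : Set G)
  · obtain ⟨x, hx, hxO⟩ := SetLike.not_le_iff_exists.mp hAO
    refine ⟨x, hAR hx, hxO, fun b hb => ?_⟩
    have hc : x * b * x⁻¹ * b⁻¹ ∈ A := by
      have := mul_mem hx ((Subgroup.mem_normalizer_iff.mp (hBA hb) x⁻¹).mp (inv_mem hx))
      simpa [mul_assoc] using this
    rw [isMulCommutative_apply hA.2.1 hx hc, mul_inv_cancel_right, mul_inv_cancel]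
    exact one_mem _
  · exfalso
    have hB2 : ⁅⁅B, B⁆, B⁆ = ⊥ := by
      rw [Subgroup.commutator_eq_bot_iff_le_centralizer]
      refine le_trans (Subgroup.commutator_le.2 fun a ha b hb => ?_ : ⁅B, B⁆ ≤ N₀) fun a ha =>
        Subgroup.mem_centralizer_iff.2 fun b hb => (hcent a ha b hb).symm
      rw [commutatorElement_def]
      exact hcomm a ha b hb
    have hBA' : ⁅B, B⁆ ≤ A := Subgroup.commutator_le.2 fun a ha b hb => by
      rw [commutatorElement_def]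
      exact hZA A hA (hN₀Z (hcomm a ha b hb))
    obtain ⟨A', hA'R, hA'ab, hcard, hlt, hA'N, -⟩ := glauberman_replacement_in hp hRp hAR (hBO.trans hOR)
      hA.2.1 hB2 hBA' (hAR.trans (hRK.trans hKB)) hBA
    have hA' : A' ∈ maxIn E S := ⟨hA'R.trans hRS, hA'ab, fun C hC hCE => hcard ▸ hA.2.2 C hC hCE⟩
    have hA'O : A' ≤ O := by
      by_contra h
      exact absurd (hmax A' ⟨hA', h⟩)
        (not_le.2 (Set.ncard_lt_ncard (SetLike.coe_strictMono hlt) (Set.toFinite _)))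
    have hsub := maxIn_eq_of_subset (E := E) hOS hA' hA'O
    have hA'2 : A' ∈ maxIn E O := ⟨hA'O, hA'ab, fun C hC hCE => hA'.2.2 C (hC.trans hOS) hCE⟩
    have hZ2 : Z ≤ sInf (maxIn E O) := hZeq ▸ sInf_le_sInf hsub
    refine hBA ((hgen.trans (sup_le (hN₀Z.trans hZ2) ((Subgroup.closure_le _).2 ?_))).trans
      ((sInf_le hA'2).trans hA'N))
    rintro _ ⟨k, hk, rfl⟩
    exact (Subgroup.mem_normalizer_iff.mp (hinv hk) v).mp (hZ2 hvZ)

end CfsgLib.ZJFailure
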