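import Cfsg.Agent.ZJFailure.Section
import Cfsg.Agent.ZJFailure.Local
import Cfsg.Agent.GlaubermanZJ.CenterFunctor
import Cfsg.Agent.QdSection.Stability
import Mathlib.GroupTheory.SpecificGroups.Cyclic

/-!
If `Z(J(S))` does not control strong fusion then `F(p)` is involved in its normalizer, and some element of the
normalizer acts on a subgroup of order `p` of `Z(J(S))` as a generator of the automorphism group.
-/

set_option autoImplicit false

namespace CfsgLib.ZJFailure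

open Cfsg
open CfsgLib.ConjFunctor
open CfsgLib.GlaubermanZJ

universe u

variable {p : ℕ} [hpf : Fact p.Prime]

/-- The largest subgroup of `A` normalized by `K`. -/
def invCore {G : Type*} [Group G] (K A : Subgroup G) : Subgroup G where
  carrier := {x | ∀ k ∈ K, k * x * k⁻¹ ∈ A}
  one_mem' := fun k _ => by simp
  mul_mem' := fun {a b} ha hb k hk => by
    rw [show k * (a * b) * k⁻¹ = k * a * k⁻¹ * (k * b * k⁻¹) by group]
    exact mul_mem (ha k hk) (hb k hk)
  inv_mem' := fun {a} ha k hk => by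
    rw [show k * a⁻¹ * k⁻¹ = (k * a * k⁻¹)⁻¹ by group]
    exact inv_mem (ha k hk)

theorem invCore_le {G : Type*} [Group G] (K A : Subgroup G) : invCore K A ≤ A := fun x hx => by
  simpa using hx 1 (one_mem K)

theorem le_normalizer_invCore {G : Type*} [Group G] [Finite G] (K A : Subgroup G) :
    K ≤ Subgroup.normalizer (invCore K A : Set G) := fun g hg =>
  mem_normalizer_of_forall fun d hd k hk => by
    rw [show k * (g * d * g⁻¹) * k⁻¹ = k * g * d * (k * g)⁻¹ by group]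
    exact hd _ (mul_mem hk hg)

/-- A proper subgroup of a `p`-group is normalized by an element outside it. -/
theorem exists_normalizing {G : Type*} [Group G] [Finite G] {T R : Subgroup G} (hT : IsPGroup p T)
    (hRT : R ≤ T) (hne : R ≠ T) : ∃ y ∈ T, y ∉ R ∧ y ∈ Subgroup.normalizer (R : Set G) := by
  haveI : Group.IsNilpotent T := hT.isNilpotent
  have hnc : NormalizerCondition T := Group.normalizerCondition_of_isNilpotent
  have hlt : R.subgroupOf T < ⊤ := by
    rw [lt_top_iff_ne_top, ne_eq, Subgroup.subgroupOf_eq_top]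
    exact fun h => hne (le_antisymm hRT h)
  obtain ⟨-, x, hx, hxR⟩ := SetLike.lt_iff_le_and_exists.mp (hnc _ hlt)
  refine ⟨x, x.2, hxR, mem_normalizer_of_forall fun d hd => ?_⟩
  exact (Subgroup.mem_normalizer_iff.mp hx ⟨d, hRT hd⟩).mp hd

/-- A fixed element of order `p` in a section of a `p`-group. -/
theorem exists_fixed_mod {G : Type*} [Group G] [Finite G] {T W N : Subgroup G} (hT : IsPGroup p T)
    (hWT : W ≤ T) (hNW : N ≤ W) (hne : N ≠ W) (hTW : T ≤ Subgroup.normalizer (W : Set G))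
    (hTN : T ≤ Subgroup.normalizer (N : Set G)) :
    ∃ v ∈ W, v ∉ N ∧ v ^ p ∈ N ∧ ∀ t ∈ T, t * v * t⁻¹ * v⁻¹ ∈ N := by
  set N' := N.subgroupOf T with hN'
  haveI : N'.Normal := Subgroup.normal_subgroupOf_of_le_normalizer hTN
  haveI : (W.subgroupOf T).Normal := Subgroup.normal_subgroupOf_of_le_normalizer hTW
  set q := QuotientGroup.mk' N' with hq
  set Wq := (W.subgroupOf T).map q with hWq
  haveI : Wq.Normal := Subgroup.Normal.map inferInstance q (QuotientGroup.mk'_surjective _)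
  have hQ : IsPGroup p (T ⧸ N') := hT.to_quotient N'
  have hWne : Wq ≠ ⊥ := fun h => hne (le_antisymm hNW fun w hw => by
    have h1 : q ⟨w, hWT hw⟩ ∈ (⊥ : Subgroup (T ⧸ N')) := h ▸ ⟨⟨w, hWT hw⟩, hw, rfl⟩
    rw [Subgroup.mem_bot, hq, QuotientGroup.mk'_apply, QuotientGroup.eq_one_iff] at h1
    exact h1)
  letI : MulAction (T ⧸ N') Wq :=
    { smul := fun g w => ⟨g * w * g⁻¹, (inferInstance : Wq.Normal).conj_mem _ w.2 g⟩
      one_smul := fun w => Subtype.ext (by show (1 : T ⧸ N') * w * 1⁻¹ = w; simp)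
      mul_smul := fun g h w => Subtype.ext (by
        show g * h * (w : T ⧸ N') * (g * h)⁻¹ = g * (h * w * h⁻¹) * g⁻¹
        simp [mul_assoc]) }
  have hdvd : p ∣ Nat.card Wq := by
    obtain ⟨k, hk⟩ := IsPGroup.iff_card.1 (hQ.to_subgroup Wq)
    rw [hk]
    exact dvd_pow_self p fun h => hWne (Subgroup.card_eq_one.1 (by rw [hk, h, pow_zero]))
  obtain ⟨w, hw, hw1⟩ := hQ.exists_fixed_point_of_prime_dvd_card_of_fixed_point Wq hdvd
    (a := (1 : Wq)) (fun g => Subtype.ext (by show g * (1 : T ⧸ N') * g⁻¹ = 1; simp))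
  -- a power of order `p`
  have hwne : (w : T ⧸ N') ≠ 1 := fun h => hw1 (Subtype.ext h.symm)
  obtain ⟨j, hj⟩ := IsPGroup.iff_orderOf.1 hQ (w : T ⧸ N')
  have hj0 : j ≠ 0 := fun h => hwne (orderOf_eq_one_iff.1 (by rw [hj, h, pow_zero]))
  set e := p ^ (j - 1)
  have he : e * p = p ^ j := by rw [← pow_succ, Nat.sub_add_cancel (Nat.pos_of_ne_zero hj0)]
  obtain ⟨x, hx, hxw⟩ := (pow_mem w.2 e : (w : T ⧸ N') ^ e ∈ Wq)
  have hmem : ∀ y : T, q y = 1 ↔ (y : G) ∈ N := fun y => by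
    rw [hq, QuotientGroup.mk'_apply, QuotientGroup.eq_one_iff]
    rfl
  refine ⟨x, hx, fun h => ?_, ?_, fun t ht => ?_⟩
  · have h1 : (w : T ⧸ N') ^ e = 1 := hxw ▸ (hmem x).2 h
    have h2 := orderOf_le_of_pow_eq_one (pow_pos hpf.out.pos _) h1
    rw [hj, ← he] at h2
    have h3 : 0 < e := pow_pos hpf.out.pos _
    have h4 := Nat.le_of_mul_le_mul_left (h2.trans (mul_one e).ge) h3
    exact absurd h4 (not_le.2 hpf.out.one_lt)
  · have h1 : q (x ^ p) = 1 := by rw [map_pow, hxw, ← pow_mul, he, ← hj, pow_orderOf_eq_one]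
    exact (hmem _).1 h1
  · have hc : q ⟨t, ht⟩ * (w : T ⧸ N') * (q ⟨t, ht⟩)⁻¹ = w := congrArg Subtype.val (hw (q ⟨t, ht⟩))
    have h1 : q (⟨t, ht⟩ * x * ⟨t, ht⟩⁻¹ * x⁻¹) = 1 := by
      rw [map_mul, map_mul, map_mul, map_inv, map_inv, hxw, ← conj_pow, hc, mul_inv_cancel]
    exact (hmem _).1 h1

/-- The conjugation by `g` on `A` is one of an element of `H`. -/
def Fus {G : Type*} [Group G] (H A : Subgroup G) (g : G) : Prop :=
  ∃ n ∈ H, ∀ a ∈ A, n * a * n⁻¹ = g * a * g⁻¹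

theorem fusionProp_fus {G : Type*} [Group G] (S H : Subgroup G) : FusionProp S (Fus H) where
  comp := by
    rintro A g h _ _ _ ⟨n, hn, hn'⟩ ⟨m, hm, hm'⟩
    refine ⟨m * n, mul_mem hm hn, fun a ha => ?_⟩
    calc m * n * a * (m * n)⁻¹ = m * (n * a * n⁻¹) * m⁻¹ := by group
      _ = h * (g * a * g⁻¹) * h⁻¹ := by rw [hn' a ha, hm' _ (conj_mem_conjOf ha)]
      _ = _ := by group
  mono := fun _ _ _ hAB _ _ ⟨n, hn, hn'⟩ => ⟨n, hn, fun a ha => hn' a (hAB ha)⟩

/-- The normalizer of `Z(J(S))` controls the fusion of the subgroups of `S`. -/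
def FusControlled {G : Type*} [Group G] (S : Sylow p G) : Prop :=
  ∀ (A : Subgroup G) (g : G), A ≤ (S : Subgroup G) → conjOf g A ≤ (S : Subgroup G) →
    Fus (Subgroup.normalizer (centerThompsonAOf (S : Subgroup G) : Set G)) A g

/-- `F(p)` is involved in `N(Z(J(S)))`, and some element of it induces a generator of the automorphism group on a
subgroup of order `p` of `Z(J(S))`. -/
def FailureData {G : Type*} [Group G] (S : Sylow p G) : Prop :=
  Involves ↥(Cfsg.fOver (ZMod p))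
      ↥(Subgroup.normalizer (centerThompsonAOf (S : Subgroup G) : Set G)) ∧
    ∃ c ∈ centerThompsonAOf (S : Subgroup G), c ≠ 1 ∧ c ^ p = 1 ∧
      ∃ n ∈ Subgroup.normalizer (centerThompsonAOf (S : Subgroup G) : Set G), ∃ s : (ZMod p)ˣ,
        (∀ x : (ZMod p)ˣ, x ∈ Subgroup.zpowers s) ∧ n * c * n⁻¹ = c ^ (s : ZMod p).val

variable {G : Type u} [Group G] [Finite G]

theorem centerThompsonA_eq_of_le {T S : Subgroup G} (hTS : T ≤ S)
    (hJ : thompsonSubgroupAOf S ≤ T) : centerThompsonAOf T = centerThompsonAOf S := by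
  obtain ⟨A₁, hA₁⟩ := exists_maxIn (E := fun A : Subgroup G => IsMulCommutative A)
    ⟨⟨fun a b => Subsingleton.elim _ _⟩⟩ S
  rw [thompsonSubgroupAOf_eq_sSup] at hJ
  have hle : ∀ A ∈ maxIn (fun A : Subgroup G => IsMulCommutative A) S, A ≤ T := fun A hA =>
    (le_sSup hA).trans hJ
  rw [centerThompsonAOf_eq_sInf, centerThompsonAOf_eq_sInf]
  refine congrArg sInf (Set.Subset.antisymm (maxIn_eq_of_subset hTS hA₁ (hle _ hA₁)) fun A hA => ?_)
  exact ⟨hle A hA, hA.2.1, fun C hC hCE => hA.2.2 C (hC.trans hTS) hCE⟩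

theorem conjOf_thompsonA {S : Subgroup G} {g : G} (h : conjOf g (thompsonSubgroupAOf S) ≤ S) :
    conjOf g (thompsonSubgroupAOf S) = thompsonSubgroupAOf S := by
  refine Subgroup.eq_of_le_of_card_ge ?_ (card_conjOf _ _).ge
  rw [thompsonSubgroupAOf_eq_sSup] at h ⊢
  rw [conjOf, Subgroup.map_le_iff_le_comap]
  refine sSup_le fun A hA => ?_
  rw [← Subgroup.map_le_iff_le_comap]
  refine le_sSup ⟨(conjOf_mono (le_sSup hA)).trans h, isMulCommutative_map _ hA.2.1, fun C hC hCE => ?_⟩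
  rw [show Subgroup.map (MulAut.conj g).toMonoidHom A = conjOf g A from rfl, card_conjOf]
  exact hA.2.2 C hC hCE

/-- Passing to a proper subgroup containing `J(S)` and normalizing: either the conclusion holds, or the
normalizer of `Z(J(S))` controls its fusion. -/
theorem data_or_controlled
    (IH : ∀ (L : Subgroup G), L ≠ ⊤ → ∀ SL : Sylow p L, ¬ FusControlled SL → FailureData SL)
    (S : Sylow p G) {P : Subgroup G}
    (hbig : ∀ (A : Subgroup G) (g : G), Nat.card P < Nat.card A → A ≤ (S : Subgroup G) →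
      conjOf g A ≤ (S : Subgroup G) → Fus (Subgroup.normalizer (centerThompsonAOf (S : Subgroup G) : Set G)) A g)
    {L : Subgroup G} (hL : L ≠ ⊤) (hJL : thompsonSubgroupAOf (S : Subgroup G) ≤ L)
    (hcard : Nat.card P < Nat.card ↥((S : Subgroup G) ⊓ L)) :
    FailureData S ∨ ∀ U : Subgroup G, U ≤ (S : Subgroup G) ⊓ L → ∀ h ∈ L,
      h ∈ Subgroup.normalizer (U : Set G) →
        Fus (Subgroup.normalizer (centerThompsonAOf (S : Subgroup G) : Set G)) U h := by
  classical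
  obtain ⟨SL, hSL, hle⟩ := exists_sylowIn_ge (inf_le_right : (S : Subgroup G) ⊓ L ≤ L)
    (isPGroup_inf (S := S) L)
  obtain ⟨g, hg⟩ := exists_conjOf_le hSL.2.1 S
  obtain ⟨n₀, hn₀, hn₀'⟩ := hbig _ g hcard inf_le_left ((conjOf_mono hle).trans hg)
  set L' := conjOf g L with hL'
  set T' := conjOf g SL with hT'
  have hT'L : SylowIn p T' L' := sylowIn_conjOf hSL g
  have hJS : thompsonSubgroupAOf (S : Subgroup G) ≤ (S : Subgroup G) := by
    rw [thompsonSubgroupAOf_eq_sSup]; exact sSup_le fun A hA => hA.1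
  have hJT : thompsonSubgroupAOf (S : Subgroup G) ≤ T' := by
    have h1 : conjOf g (thompsonSubgroupAOf (S : Subgroup G)) ≤ T' :=
      conjOf_mono ((le_inf hJS hJL).trans hle)
    rwa [conjOf_thompsonA (h1.trans hg)] at h1
  have hZT : centerThompsonAOf T' = centerThompsonAOf (S : Subgroup G) := centerThompsonA_eq_of_le hg hJT
  let SL' : Sylow p L' := (hT'L.2.1.comap_subtype (K := L')).toSylow hT'L.2.2
  have hSL'map : (SL' : Subgroup L').map L'.subtype = T' := Subgroup.map_subgroupOf_eq_of_le hT'L.1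
  have hZmap : (centerThompsonAOf (SL' : Subgroup L')).map L'.subtype =
      centerThompsonAOf (S : Subgroup G) := by
    rw [show (centerThompsonAOf (SL' : Subgroup L')).map L'.subtype =
      centerThompsonAOf ((SL' : Subgroup L').map L'.subtype) from
      (abelianCenter.{u} p).map_subtype_obj L' (SL' : Subgroup L'), hSL'map, hZT]
  have hHmap : ∀ x : L', x ∈ Subgroup.normalizer (centerThompsonAOf (SL' : Subgroup L') : Set L') →
      (x : G) ∈ Subgroup.normalizer (centerThompsonAOf (S : Subgroup G) : Set G) := fun x hx =>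
    hZmap ▸ Subgroup.le_normalizer_map L'.subtype ⟨x, hx, rfl⟩
  by_cases hfail : FusControlled SL'
  · refine Or.inr fun U hU h hh hhU => ?_
    have hgU : conjOf g U ≤ T' := conjOf_mono (hU.trans hle)
    have hhL' : g * h * g⁻¹ ∈ L' := conj_mem_conjOf hh
    have hAle : (conjOf g U).subgroupOf L' ≤ (SL' : Subgroup L') := fun x hx => hgU hx
    have hconj : conjOf (⟨_, hhL'⟩ : L') ((conjOf g U).subgroupOf L') ≤ (SL' : Subgroup L') := by
      rw [conjOf_le_iff]
      intro x hx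
      apply hAle
      show g * h * g⁻¹ * x * (g * h * g⁻¹)⁻¹ ∈ conjOf g U
      have h1 := mem_conjOf.mp (show (x : G) ∈ conjOf g U from hx)
      have h2 := conj_mem_conjOf (g := g) ((Subgroup.mem_normalizer_iff.mp hhU _).mp h1)
      simpa [mul_assoc] using h2
    obtain ⟨n₁, hn₁, hn₁'⟩ := hfail _ _ hAle hconj
    refine ⟨n₀⁻¹ * (n₁ : G) * n₀, mul_mem (mul_mem (inv_mem hn₀) (hHmap n₁ hn₁)) hn₀, fun u hu => ?_⟩
    have e1 := hn₀' u (hU hu)
    have e2 : n₀ * (h * u * h⁻¹) * n₀⁻¹ = g * (h * u * h⁻¹) * g⁻¹ :=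
      hn₀' _ (hU ((Subgroup.mem_normalizer_iff.mp hhU u).mp hu))
    have hmem : g * u * g⁻¹ ∈ L' := hT'L.1 (hgU (conj_mem_conjOf hu))
    have e3 : (n₁ : G) * (g * u * g⁻¹) * (n₁ : G)⁻¹ = g * h * g⁻¹ * (g * u * g⁻¹) * (g * h * g⁻¹)⁻¹ :=
      congrArg Subtype.val (hn₁' ⟨_, hmem⟩ (conj_mem_conjOf hu))
    calc n₀⁻¹ * (n₁ : G) * n₀ * u * (n₀⁻¹ * (n₁ : G) * n₀)⁻¹
        = n₀⁻¹ * ((n₁ : G) * (n₀ * u * n₀⁻¹) * (n₁ : G)⁻¹) * n₀ := by group
      _ = n₀⁻¹ * (g * (h * u * h⁻¹) * g⁻¹) * n₀ := by rw [e1, e3]; group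
      _ = h * u * h⁻¹ := by rw [← e2]; group
  · have hne : L' ≠ ⊤ := fun h => hL (Subgroup.eq_top_of_card_eq L (by
      rw [← card_conjOf g L, ← hL', h, Subgroup.card_top]))
    obtain ⟨hinv, c, hc, hc1, hcp, n, hn, s, hs, hnc⟩ := IH L' hne SL' hfail
    refine Or.inl ⟨?_, (c : G), hZmap ▸ ⟨c, hc, rfl⟩, fun h => hc1 (Subtype.ext h),
      congrArg Subtype.val hcp, (n : G), hHmap n hn, s, hs, congrArg Subtype.val hnc⟩
    let f : Subgroup.normalizer (centerThompsonAOf (SL' : Subgroup L') : Set L') →*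
        Subgroup.normalizer (centerThompsonAOf (S : Subgroup G) : Set G) :=
      MonoidHom.mk (OneHom.mk (fun x => ⟨((x : L') : G), hHmap _ x.2⟩) rfl) fun _ _ => rfl
    exact CfsgLib.QdSection.involves_of_injective f (fun x y h => Subtype.ext (Subtype.ext
      (congrArg (fun z : Subgroup.normalizer (centerThompsonAOf (S : Subgroup G) : Set G) => (z : G)) h)))
      hinv

/-- A subgroup `K` whose Sylow subgroup lies in `S` and which moves some element of `Z` lying in a normal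
`p`-subgroup out of `Z`. -/
def Moves (S : Sylow p G) (Z K : Subgroup G) : Prop :=
  SylowIn p ((S : Subgroup G) ⊓ K) K ∧ ∃ Q : Subgroup G, Q ≤ K ∧ IsPGroup p Q ∧
    K ≤ Subgroup.normalizer (Q : Set G) ∧ ∃ z ∈ Z, z ∈ Q ∧ ∃ k ∈ K, k * z * k⁻¹ ∉ Z

set_option maxHeartbeats 2000000 in
theorem failureData_step (hp : p ≠ 2)
    (IH : ∀ (L : Subgroup G), L ≠ ⊤ → ∀ SL : Sylow p L, ¬ FusControlled SL → FailureData SL)
    (S : Sylow p G) (hfail : ¬ FusControlled S) : FailureData S := by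
  classical
  set Z := centerThompsonAOf (S : Subgroup G) with hZdef
  set H := Subgroup.normalizer (Z : Set G) with hHdef
  set J := thompsonSubgroupAOf (S : Subgroup G) with hJdef
  have hJeq : J = sSup (maxIn (fun A : Subgroup G => IsMulCommutative A) (S : Subgroup G)) :=
    thompsonSubgroupAOf_eq_sSup _
  have hJS : J ≤ (S : Subgroup G) := hJeq ▸ sSup_le fun A hA => hA.1
  have hZJ : Z ≤ J := inf_le_left
  have hZS : Z ≤ (S : Subgroup G) := hZJ.trans hJS
  have hJcent : ∀ j ∈ J, ∀ z ∈ Z, j * z = z * j := fun j hj z hz =>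
    Subgroup.mem_centralizer_iff.mp hz.2 j hj
  have hZab : IsMulCommutative Z :=
    ⟨⟨fun a b => Subtype.ext (hJcent a (hZJ a.2) b b.2)⟩⟩
  have hNSH : Subgroup.normalizer ((S : Subgroup G) : Set G) ≤ H :=
    (abelianCenter.{u} p).normalizer_le_normalizer_obj (S : Subgroup G)
  have hSH : (S : Subgroup G) ≤ H := Subgroup.le_normalizer.trans hNSH
  have hSJ : (S : Subgroup G) ≤ Subgroup.normalizer (J : Set G) := fun s hs =>
    mem_normalizer_iff_conjOf.mpr (conjOf_thompsonA (conjOf_le_iff.mpr fun x hx =>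
      mul_mem (mul_mem hs (hJS hx)) (inv_mem hs)))
  -- a largest failing subgroup
  obtain ⟨P, hP, hbig, y, hy, hyP⟩ : ∃ P : Subgroup G, FullyNormalized p (S : Subgroup G) P ∧
      (∀ (A : Subgroup G) (g : G), Nat.card P < Nat.card A → A ≤ (S : Subgroup G) →
        conjOf g A ≤ (S : Subgroup G) → Fus H A g) ∧
      ∃ y ∈ Subgroup.normalizer (P : Set G), ¬ Fus H P y := by
    by_contra hall
    apply hfail
    refine fusion_induction_card S (fusionProp_fus _ _) Set.univ (fun T hT => ?_) fun U _ hU hb y hy => ?_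
    · obtain ⟨g, hg, -⟩ := exists_fullyNormalized_conj S hT bot_le IsPGroup.of_bot
      exact ⟨_, Set.mem_univ _, hg, g, rfl⟩
    · by_contra hyU
      exact hall ⟨U, hU, hb, y, hy, hyU⟩
  have hPS : P ≠ (S : Subgroup G) := fun h => hyP ⟨y, hNSH (h ▸ hy), fun _ _ => rfl⟩
  set M := Subgroup.normalizer (P : Set G) with hM
  set T := (S : Subgroup G) ⊓ M with hT
  have hTM : SylowIn p T M := hP.sylowIn
  have hPT : P ≤ T := le_inf hP.1 Subgroup.le_normalizer
  have hPlt : Nat.card P < Nat.card T := card_lt_normalizer S hP.1 hPS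
  have hTZ : T ≤ Subgroup.normalizer (Z : Set G) := inf_le_left.trans hSH
  -- `M` moves an element of `Z` inside `P`
  have hMoves : Moves S Z M := by
    refine ⟨hTM, P, Subgroup.le_normalizer, S.2.to_le hP.1, le_rfl, ?_⟩
    set N₀ := invCore M (Z ⊓ P) with hN₀
    have hN₀le : N₀ ≤ Z ⊓ P := invCore_le _ _
    have hMN₀ : M ≤ Subgroup.normalizer (N₀ : Set G) := le_normalizer_invCore _ _
    have hWne : N₀ ≠ Z ⊓ T := by
      intro heq
      have hZP : Z ≤ P := by
        by_contra hnot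
        have hle : P ⊔ Z ≤ (S : Subgroup G) := sup_le hP.1 hZS
        obtain ⟨w, hw, hwP, hwN⟩ := exists_normalizing (S.2.to_le hle) le_sup_left
          (fun h => hnot (h.symm ▸ le_sup_right))
        have hw' : w ∈ ((P ⊔ Z : Subgroup G) : Set G) := hw
        rw [Subgroup.coe_mul_of_left_le_normalizer_right P Z (hP.1.trans hSH)] at hw'
        obtain ⟨a, ha, z, hz, rfl⟩ := hw'
        have hzM : z ∈ M := by
          have := mul_mem (inv_mem (Subgroup.le_normalizer ha : a ∈ M)) hwN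
          simpa using this
        exact hwP (mul_mem ha (hN₀le (heq ▸ ⟨hz, hZS hz, hzM⟩ : z ∈ N₀)).2)
      have hN₀Z : N₀ = Z := by rw [heq, inf_eq_left.mpr (hZP.trans hPT)]
      refine hyP ⟨y, ?_, fun _ _ => rfl⟩
      rw [hHdef, ← hN₀Z]
      exact hMN₀ hy
    obtain ⟨v, hvW, hvN, -, hvT⟩ := exists_fixed_mod (p := p) hTM.2.1 (inf_le_right : Z ⊓ T ≤ T)
      (hN₀le.trans (inf_le_inf_left _ hPT)) hWne
      (fun t ht => mem_normalizer_of_forall fun d hd =>
        ⟨(Subgroup.mem_normalizer_iff.mp (hTZ ht) d).mp hd.1, T.mul_mem (T.mul_mem ht hd.2) (T.inv_mem ht)⟩)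
      (hTM.1.trans hMN₀)
    have hvP : v ∈ P := by
      by_contra hvP
      -- the stabilizer of the series
      have hcomm : ∀ a ∈ N₀, ∀ z ∈ Z, a * z = z * a := fun a ha z hz => hJcent a (hZJ (hN₀le ha).1) z hz
      let Kst : Subgroup G :=
        { carrier := {k | k ∈ M ∧ (∀ x ∈ P, k * x * k⁻¹ * x⁻¹ ∈ N₀) ∧ ∀ a ∈ N₀, k * a * k⁻¹ = a}
          one_mem' := ⟨one_mem M, fun x _ => by simp, fun a _ => by simp⟩
          mul_mem' := fun {k l} hk hl => ⟨mul_mem hk.1 hl.1, fun x hx => by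
              rw [show k * l * x * (k * l)⁻¹ * x⁻¹ =
                k * (l * x * l⁻¹ * x⁻¹) * k⁻¹ * (k * x * k⁻¹ * x⁻¹) by group, hk.2.2 _ (hl.2.1 x hx)]
              exact mul_mem (hl.2.1 x hx) (hk.2.1 x hx),
            fun a ha => by
              rw [show k * l * a * (k * l)⁻¹ = k * (l * a * l⁻¹) * k⁻¹ by group, hl.2.2 a ha, hk.2.2 a ha]⟩
          inv_mem' := fun {k} hk => by
            have hfix : ∀ a ∈ N₀, k⁻¹ * a * k⁻¹⁻¹ = a := fun a ha => by
              have := hk.2.2 a ha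
              calc k⁻¹ * a * k⁻¹⁻¹ = k⁻¹ * (k * a * k⁻¹) * k⁻¹⁻¹ := by rw [this]
                _ = a := by group
            refine ⟨inv_mem hk.1, fun x hx => ?_, hfix⟩
            rw [show k⁻¹ * x * k⁻¹⁻¹ * x⁻¹ = (k⁻¹ * (k * x * k⁻¹ * x⁻¹) * k⁻¹⁻¹)⁻¹ by group,
              hfix _ (hk.2.1 x hx)]
            exact inv_mem (hk.2.1 x hx) }
      have hvK : v ∈ Kst := by
        refine ⟨hTM.1 hvW.2, fun x hx => ?_, fun a ha => ?_⟩
        · rw [show v * x * v⁻¹ * x⁻¹ = (x * v * x⁻¹ * v⁻¹)⁻¹ by group]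
          exact inv_mem (hvT x (hPT hx))
        · rw [← hcomm a ha v hvW.1, mul_inv_cancel_right]
      have hKn : (Kst.subgroupOf M).Normal := by
        refine ⟨fun k hk m => ?_⟩
        rw [Subgroup.mem_subgroupOf] at hk ⊢
        have hm := m.2
        have hPm : ∀ x ∈ P, (m : G)⁻¹ * x * (m : G) ∈ P := fun x hx => by
          simpa using (Subgroup.mem_normalizer_iff.mp (inv_mem hm) x).mp hx
        have hNm : ∀ a ∈ N₀, (m : G)⁻¹ * a * (m : G) ∈ N₀ := fun a ha => by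
          simpa using (Subgroup.mem_normalizer_iff.mp (inv_mem (hMN₀ hm)) a).mp ha
        refine ⟨mul_mem (mul_mem hm hk.1) (inv_mem hm), fun x hx => ?_, fun a ha => ?_⟩
        · simp only [Subgroup.coe_mul, Subgroup.coe_inv]
          have h1 := (Subgroup.mem_normalizer_iff.mp (hMN₀ hm) _).mp (hk.2.1 _ (hPm x hx))
          simpa [mul_assoc] using h1
        · simp only [Subgroup.coe_mul, Subgroup.coe_inv]
          calc (m : G) * k * (m : G)⁻¹ * a * ((m : G) * k * (m : G)⁻¹)⁻¹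
              = (m : G) * (k * ((m : G)⁻¹ * a * m) * (k : G)⁻¹) * (m : G)⁻¹ := by group
            _ = a := by rw [hk.2.2 _ (hNm a ha)]; group
      set CP := Subgroup.centralizer (P : Set G) with hCP
      have hCn : (CP.subgroupOf M).Normal := by
        refine ⟨fun c hc m => ?_⟩
        rw [Subgroup.mem_subgroupOf, hCP, Subgroup.mem_centralizer_iff] at hc ⊢
        intro x hx
        have h1 := hc _ ((by simpa using (Subgroup.mem_normalizer_iff.mp (inv_mem m.2) x).mp hx) :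
          (m : G)⁻¹ * x * (m : G) ∈ P)
        simp only [Subgroup.coe_mul, Subgroup.coe_inv]
        calc x * ((m : G) * c * (m : G)⁻¹) = (m : G) * ((m : G)⁻¹ * x * m * c) * (m : G)⁻¹ := by group
          _ = _ := by rw [h1]; group
      have hCK : CP.subgroupOf M ≤ Kst.subgroupOf M := by
        intro c hc
        rw [Subgroup.mem_subgroupOf, hCP, Subgroup.mem_centralizer_iff] at hc
        rw [Subgroup.mem_subgroupOf]
        refine ⟨c.2, fun x hx => ?_, fun a ha => ?_⟩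
        · rw [← hc x hx, mul_inv_cancel_right, mul_inv_cancel]; exact one_mem _
        · rw [← hc a (hN₀le ha).2, mul_inv_cancel_right]
      have hrel : ∃ e : ℕ, (CP.subgroupOf M).relIndex (Kst.subgroupOf M) = p ^ e := by
        have hpq : IsPGroup p (↥(Kst.subgroupOf M) ⧸ (CP.subgroupOf M).subgroupOf (Kst.subgroupOf M)) := by
          intro q
          obtain ⟨k, rfl⟩ := QuotientGroup.mk'_surjective _ q
          obtain ⟨e, he⟩ := IsPGroup.iff_card.1 (S.2.to_le (hN₀le.trans (inf_le_left.trans hZS)))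
          refine ⟨e, ?_⟩
          rw [QuotientGroup.mk'_apply, ← QuotientGroup.mk_pow, QuotientGroup.eq_one_iff]
          show (((k ^ p ^ e : Kst.subgroupOf M) : M) : G) ∈ CP
          simp only [SubgroupClass.coe_pow]
          rw [hCP, Subgroup.mem_centralizer_iff]
          intro x hx
          have hk := k.2
          rw [Subgroup.mem_subgroupOf] at hk
          set d := ((k : M) : G) * x * ((k : M) : G)⁻¹ * x⁻¹ with hd
          have hdN : d ∈ N₀ := hk.2.1 x hx
          have hstep : ∀ i : ℕ, ((k : M) : G) ^ i * x * (((k : M) : G) ^ i)⁻¹ = d ^ i * x := by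
            intro i
            induction i with
            | zero => simp
            | succ i ih =>
              rw [pow_succ']
              calc ((k : M) : G) * ((k : M) : G) ^ i * x * (((k : M) : G) * ((k : M) : G) ^ i)⁻¹
                  = ((k : M) : G) * (((k : M) : G) ^ i * x * (((k : M) : G) ^ i)⁻¹) * ((k : M) : G)⁻¹ := by
                    group
                _ = ((k : M) : G) * d ^ i * ((k : M) : G)⁻¹ * (((k : M) : G) * x * ((k : M) : G)⁻¹) := by
                    rw [ih]; group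
                _ = d ^ (i + 1) * x := by
                    rw [hk.2.2 _ (pow_mem hdN i), pow_succ, hd]; group
          have hd1 : d ^ p ^ e = 1 := by
            have h := pow_card_eq_one' (G := N₀) (x := ⟨d, hdN⟩)
            rw [he] at h
            exact congrArg Subtype.val h
          have := hstep (p ^ e)
          rw [hd1, one_mul, mul_inv_eq_iff_eq_mul] at this
          exact this.symm
        obtain ⟨e, he⟩ := IsPGroup.iff_card.1 hpq
        exact ⟨e, he⟩
      haveI := hKn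
      haveI := hCn
      let Ts : Sylow p M := (hTM.2.1.comap_subtype (K := M)).toSylow hTM.2.2
      obtain ⟨n, hn, c, hc, hyeq⟩ := exists_frattini Ts (Kst.subgroupOf M) ⟨y, hy⟩
      obtain ⟨c₀, hc₀, s, hsT, hsK, hceq⟩ := exists_mul_of_relIndex_pow Ts hCK hrel hc
      set Qb := P ⊔ (T ⊓ Kst) with hQb
      have hQbS : Qb ≤ (S : Subgroup G) := sup_le hP.1 (inf_le_left.trans inf_le_left)
      have hQbig : Nat.card P < Nat.card Qb := by
        refine lt_of_le_of_ne (Subgroup.card_le_of_le le_sup_left) fun h => hvP ?_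
        rw [Subgroup.eq_of_le_of_card_ge (le_sup_left : P ≤ Qb) h.ge]
        exact Subgroup.mem_sup_right ⟨hvW.2, hvK⟩
      have hsG : (s : G) ∈ T ⊓ Kst := ⟨hsT, hsK⟩
      have hns : ((n : G) * s) ∈ Subgroup.normalizer (Qb : Set G) := by
        refine mul_mem (mem_normalizer_iff_conjOf.mpr ?_) (Subgroup.le_normalizer (Subgroup.mem_sup_right hsG))
        rw [hQb, conjOf, Subgroup.map_sup]
        refine congrArg₂ (· ⊔ ·) (mem_normalizer_iff_conjOf.mp n.2) ?_
        refine mem_normalizer_iff_conjOf.mp (mem_normalizer_of_forall fun d hd => ?_)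
        have h1 := (Subgroup.mem_normalizer_iff.mp hn (⟨d, hTM.1 hd.1⟩ : M)).mp ⟨hd.1, hd.2⟩
        exact ⟨h1.1, h1.2⟩
      obtain ⟨m, hm, hm'⟩ := hbig Qb ((n : G) * s) hQbig hQbS
        ((mem_normalizer_iff_conjOf.mp hns).le.trans hQbS)
      refine hyP ⟨m, hm, fun x hx => ?_⟩
      rw [hm' x (Subgroup.mem_sup_left hx)]
      have hyG : y = (n : G) * ((c₀ : G) * s) := by
        have h1 := congrArg (Subtype.val (p := fun x => x ∈ M)) hyeq
        rw [hceq] at h1
        exact h1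
      have hsM : (s : G) ∈ Subgroup.normalizer (P : Set G) := s.2
      have hsx : (s : G) * x * (s : G)⁻¹ ∈ P := (Subgroup.mem_normalizer_iff.mp hsM x).mp hx
      have hc₀' : (c₀ : G) ∈ CP := hc₀
      rw [hCP, Subgroup.mem_centralizer_iff] at hc₀'
      have h2 := hc₀' _ hsx
      rw [hyG]
      calc (n : G) * s * x * ((n : G) * s)⁻¹
          = (n : G) * ((s : G) * x * (s : G)⁻¹ * c₀ * (c₀ : G)⁻¹) * (n : G)⁻¹ := by group
        _ = _ := by rw [h2]; group
    refine ⟨v, hvW.1, hvP, ?_⟩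
    by_contra hall
    push Not at hall
    exact hvN fun k hk => ⟨hall k hk, (Subgroup.mem_normalizer_iff.mp hk v).mp hvP⟩
  -- choose `K`
  obtain ⟨K', hK', hKmax⟩ := Set.exists_max_image {K : Subgroup G | Moves S Z K}
    (fun K => Nat.card ↥((S : Subgroup G) ⊓ K)) (Set.toFinite _) ⟨M, hMoves⟩
  obtain ⟨K, ⟨hK, hKR⟩, hKmin⟩ := Set.exists_min_image
    {K : Subgroup G | Moves S Z K ∧ Nat.card ↥((S : Subgroup G) ⊓ K) = Nat.card ↥((S : Subgroup G) ⊓ K')}
    (fun K => Nat.card K) (Set.toFinite _) ⟨K', hK', rfl⟩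
  set R := (S : Subgroup G) ⊓ K with hR
  have hRcard : ∀ K₂ : Subgroup G, Moves S Z K₂ → Nat.card ↥((S : Subgroup G) ⊓ K₂) ≤ Nat.card R :=
    fun K₂ h => (hKmax K₂ h).trans hKR.ge
  have hRbig : Nat.card P < Nat.card R := hPlt.trans_le (hRcard M hMoves)
  obtain ⟨hRK, Q, hQK, hQp, hKQ, z, hzZ, hzQ, k₀, hk₀, hk₀z⟩ := hK
  have hRp : IsPGroup p R := isPGroup_inf _
  have hQR : Q ≤ R := by
    obtain ⟨h, hh, hh'⟩ := exists_conj_le_of_sylowIn hRK hQK hQp
    rwa [mem_normalizer_iff_conjOf.mp (hKQ hh)] at hh'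
  have hRZ : R ≤ Subgroup.normalizer (Z : Set G) := inf_le_left.trans hSH
  -- `N₀`, `v`, `B`
  set W := Z ⊓ Q with hW
  set N₀ := invCore K W with hN₀
  have hN₀W : N₀ ≤ W := invCore_le _ _
  have hKN₀ : K ≤ Subgroup.normalizer (N₀ : Set G) := le_normalizer_invCore _ _
  have hRW : R ≤ Subgroup.normalizer (W : Set G) := fun r hr => mem_normalizer_of_forall fun d hd =>
    ⟨(Subgroup.mem_normalizer_iff.mp (hRZ hr) d).mp hd.1,
      (Subgroup.mem_normalizer_iff.mp (hKQ (hRK.1 hr)) d).mp hd.2⟩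
  have hNW : N₀ ≠ W := fun h => hk₀z ((h ▸ (⟨hzZ, hzQ⟩ : z ∈ W) : z ∈ N₀) k₀ hk₀).1
  obtain ⟨v, hvW, hvN, hvp, hvR⟩ := exists_fixed_mod (p := p) hRp (inf_le_right.trans hQR : W ≤ R) hN₀W hNW
    hRW (hRK.1.trans hKN₀)
  obtain ⟨kv, hkv, hkvZ⟩ : ∃ k ∈ K, k * v * k⁻¹ ∉ Z := by
    by_contra hall
    push Not at hall
    exact hvN fun k hk => ⟨hall k hk, (Subgroup.mem_normalizer_iff.mp (hKQ hk) v).mp hvW.2⟩
  set B := N₀ ⊔ Subgroup.closure {x | ∃ k ∈ K, x = k * v * k⁻¹} with hB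
  have hvB : v ∈ B := Subgroup.mem_sup_right (Subgroup.subset_closure ⟨1, one_mem K, by simp⟩)
  have hN₀B : N₀ ≤ B := le_sup_left
  have hBQ : B ≤ Q := sup_le (hN₀W.trans inf_le_right) ((Subgroup.closure_le _).2 fun x ⟨k, hk, hx⟩ => by
    rw [hx]; exact (Subgroup.mem_normalizer_iff.mp (hKQ hk) v).mp hvW.2)
  have hBR : B ≤ R := hBQ.trans hQR
  have hKB : K ≤ Subgroup.normalizer (B : Set G) := fun g hg => by
    rw [mem_normalizer_iff_conjOf, hB, conjOf, Subgroup.map_sup]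
    refine congrArg₂ (· ⊔ ·) (mem_normalizer_iff_conjOf.mp (hKN₀ hg)) ?_
    refine mem_normalizer_iff_conjOf.mp (mem_normalizer_closure ?_)
    rintro _ ⟨k, hk, rfl⟩
    exact Subgroup.subset_closure ⟨g * k, mul_mem hg hk, by group⟩
  have hNconj : ∀ k ∈ K, ∀ d ∈ N₀, k * d * k⁻¹ ∈ N₀ := fun k hk d hd =>
    (Subgroup.mem_normalizer_iff.mp (hKN₀ hk) d).mp hd
  let CQ : Subgroup G :=
    { carrier := {b | b ∈ K ∧ ∀ q ∈ Q, q * b * q⁻¹ * b⁻¹ ∈ N₀}
      one_mem' := ⟨one_mem K, fun q _ => by simp⟩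
      mul_mem' := fun {b c} hb hc => ⟨mul_mem hb.1 hc.1, fun q hq => by
        rw [show q * (b * c) * q⁻¹ * (b * c)⁻¹ = q * b * q⁻¹ * b⁻¹ * (b * (q * c * q⁻¹ * c⁻¹) * b⁻¹) by group]
        exact mul_mem (hb.2 q hq) (hNconj b hb.1 _ (hc.2 q hq))⟩
      inv_mem' := fun {b} hb => ⟨inv_mem hb.1, fun q hq => by
        rw [show q * b⁻¹ * q⁻¹ * b⁻¹⁻¹ = b⁻¹ * (q * b * q⁻¹ * b⁻¹)⁻¹ * b⁻¹⁻¹ by group]
        exact hNconj _ (inv_mem hb.1) _ (inv_mem (hb.2 q hq))⟩ }
  have hBCQ : B ≤ CQ := by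
    refine sup_le (fun d hd => ⟨hQK (hN₀W hd).2, fun q hq => mul_mem (hNconj q (hQK hq) d hd) (inv_mem hd)⟩)
      ((Subgroup.closure_le _).2 ?_)
    rintro _ ⟨k, hk, rfl⟩
    refine ⟨mul_mem (mul_mem hk (hQK hvW.2)) (inv_mem hk), fun q hq => ?_⟩
    have hq' : k⁻¹ * q * k ∈ Q := by
      simpa using (Subgroup.mem_normalizer_iff.mp (hKQ (inv_mem hk)) q).mp hq
    have := hNconj k hk _ (hvR _ (hQR hq'))
    simpa [mul_assoc] using this
  have hcomm : ∀ a ∈ B, ∀ b ∈ B, a * b * a⁻¹ * b⁻¹ ∈ N₀ := fun a ha b hb => (hBCQ hb).2 a (hBQ ha)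
  have hcent : ∀ a ∈ N₀, ∀ b ∈ B, a * b = b * a := by
    intro a ha b hb
    refine Subgroup.mem_centralizer_iff.mp ((?_ : B ≤ Subgroup.centralizer (N₀ : Set G)) hb) a ha
    refine sup_le (fun d hd => Subgroup.mem_centralizer_iff.2 fun e he =>
      hJcent e (hZJ (hN₀W he).1) d (hN₀W hd).1) ((Subgroup.closure_le _).2 ?_)
    rintro _ ⟨k, hk, rfl⟩
    refine Subgroup.mem_centralizer_iff.2 fun e he => ?_
    have he' : k⁻¹ * e * k ∈ Z := by
      have := (hN₀W (hNconj k⁻¹ (inv_mem hk) e he)).1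
      simpa using this
    have h1 := hJcent _ (hZJ he') v hvW.1
    calc e * (k * v * k⁻¹) = k * (k⁻¹ * e * k * v) * k⁻¹ := by group
      _ = k * (v * (k⁻¹ * e * k)) * k⁻¹ := by rw [h1]
      _ = _ := by group
  have hpow : ∀ b ∈ B, b ^ p ∈ N₀ := by
    intro b hb
    set N' := N₀.subgroupOf B with hN'
    haveI : N'.Normal := Subgroup.normal_subgroupOf_of_le_normalizer ((hBR.trans hRK.1).trans hKN₀)
    have hcq : ∀ x y : B ⧸ N', Commute x y := by
      intro x y
      obtain ⟨x, rfl⟩ := QuotientGroup.mk'_surjective N' x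
      obtain ⟨y, rfl⟩ := QuotientGroup.mk'_surjective N' y
      show _ = _
      rw [← mul_inv_eq_one, ← map_mul, ← map_mul, ← map_inv, ← map_mul, QuotientGroup.mk'_apply,
        QuotientGroup.eq_one_iff]
      show ((x * y * (y * x)⁻¹ : B) : G) ∈ N₀
      simpa [mul_assoc] using hcomm _ x.2 _ y.2
    suffices h : ∀ b ∈ B, ∀ hb : b ∈ B, (QuotientGroup.mk' N' ⟨b, hb⟩) ^ p = 1 by
      have h1 := h b hb hb
      rw [← map_pow, QuotientGroup.mk'_apply, QuotientGroup.eq_one_iff] at h1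
      exact h1
    intro b hb
    have hle : B ≤ N₀ ⊔ Subgroup.closure {x | ∃ k ∈ K, x = k * v * k⁻¹} := le_rfl
    have hb' := hle hb
    rw [Subgroup.sup_eq_closure] at hb'
    have hgenB : Subgroup.closure ((N₀ : Set G) ∪ ↑(Subgroup.closure {x | ∃ k ∈ K, x = k * v * k⁻¹})) = B :=
      (Subgroup.sup_eq_closure _ _).symm
    clear hb
    induction hb' using Subgroup.closure_induction with
    | mem x hx =>
      intro hxB
      rcases hx with hx | hx
      · have : QuotientGroup.mk' N' ⟨x, hxB⟩ = 1 := (QuotientGroup.eq_one_iff _).2 hx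
        rw [this, one_pow]
      · have key : ∀ x ∈ Subgroup.closure {x | ∃ k ∈ K, x = k * v * k⁻¹}, ∀ hxB : x ∈ B,
            (QuotientGroup.mk' N' ⟨x, hxB⟩) ^ p = 1 := by
          intro x hx
          induction hx using Subgroup.closure_induction with
          | mem x hx =>
            intro hxB
            obtain ⟨k, hk, rfl⟩ := hx
            rw [← map_pow, QuotientGroup.mk'_apply, QuotientGroup.eq_one_iff]
            show (k * v * k⁻¹) ^ p ∈ N₀
            rw [conj_pow]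
            exact hNconj k hk _ hvp
          | one =>
            intro hxB
            rw [show (⟨1, hxB⟩ : B) = 1 from rfl, map_one, one_pow]
          | mul x y hx hy ihx ihy =>
            intro hxB
            have hxB' : x ∈ B := Subgroup.mem_sup_right hx
            have hyB' : y ∈ B := Subgroup.mem_sup_right hy
            rw [show (⟨x * y, hxB⟩ : B) = ⟨x, hxB'⟩ * ⟨y, hyB'⟩ from rfl, map_mul, (hcq _ _).mul_pow,
              ihx hxB', ihy hyB', one_mul]
          | inv x hx ihx =>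
            intro hxB
            rw [show (⟨x⁻¹, hxB⟩ : B) = ⟨x, Subgroup.mem_sup_right hx⟩⁻¹ from rfl, map_inv, inv_pow, ihx,
              inv_one]
        exact key x hx hxB
    | one =>
      intro hxB
      rw [show (⟨1, hxB⟩ : B) = 1 from rfl, map_one, one_pow]
    | mul x y hx hy ihx ihy =>
      intro hxB
      rw [hgenB] at hx hy
      rw [show (⟨x * y, hxB⟩ : B) = ⟨x, hx⟩ * ⟨y, hy⟩ from rfl, map_mul, (hcq _ _).mul_pow, ihx hx, ihy hy,
        one_mul]
    | inv x hx ihx =>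
      intro hxB
      rw [hgenB] at hx
      rw [show (⟨x⁻¹, hxB⟩ : B) = ⟨x, hx⟩⁻¹ from rfl, map_inv, inv_pow, ihx hx, inv_one]
  -- the trivially acting part of `R` is normal in `K`
  let Kt : Subgroup G :=
    { carrier := {k | k ∈ K ∧ ∀ b ∈ B, k * b * k⁻¹ * b⁻¹ ∈ N₀}
      one_mem' := ⟨one_mem K, fun b _ => by simp⟩
      mul_mem' := fun {k l} hk hl => ⟨mul_mem hk.1 hl.1, fun b hb => by
        rw [show k * l * b * (k * l)⁻¹ * b⁻¹ =
          k * (l * b * l⁻¹ * b⁻¹) * k⁻¹ * (k * b * k⁻¹ * b⁻¹) by group]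
        exact mul_mem (hNconj k hk.1 _ (hl.2 b hb)) (hk.2 b hb)⟩
      inv_mem' := fun {k} hk => ⟨inv_mem hk.1, fun b hb => by
        rw [show k⁻¹ * b * k⁻¹⁻¹ * b⁻¹ = k⁻¹ * (k * b * k⁻¹ * b⁻¹)⁻¹ * k⁻¹⁻¹ by group]
        exact hNconj _ (inv_mem hk.1) _ (inv_mem (hk.2 b hb))⟩ }
  have hKKt : ∀ g ∈ K, ∀ k ∈ Kt, g * k * g⁻¹ ∈ Kt := fun g hg k hk =>
    ⟨mul_mem (mul_mem hg hk.1) (inv_mem hg), fun b hb => by
      have hb' : g⁻¹ * b * g ∈ B := by
        simpa using (Subgroup.mem_normalizer_iff.mp (hKB (inv_mem hg)) b).mp hb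
      have := hNconj g hg _ (hk.2 _ hb')
      simpa [mul_assoc] using this⟩
  set O := R ⊓ Kt with hO
  have hBO : B ≤ O := le_inf hBR fun b hb => ⟨hRK.1 (hBR hb), fun c hc => hcomm b hb c hc⟩
  have hKO : K ≤ Subgroup.normalizer (O : Set G) := by
    set K₂ := K ⊓ Subgroup.normalizer (O : Set G) with hK₂
    have hRK₂ : R ≤ K₂ := le_inf hRK.1 fun r hr => mem_normalizer_of_forall fun d hd =>
      ⟨R.mul_mem (R.mul_mem hr hd.1) (R.inv_mem hr), hKKt r (hRK.1 hr) d hd.2⟩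
    have hSK₂ : (S : Subgroup G) ⊓ K₂ = R :=
      le_antisymm (inf_le_inf_left _ inf_le_left) (le_inf inf_le_left hRK₂)
    have hsyl : SylowIn p R K₂ := ⟨hRK₂, hRp, fun h => hRK.2.2 (h.trans (Dvd.intro _
      (Subgroup.relIndex_mul_relIndex R K₂ K hRK₂ inf_le_left)))⟩
    have hmv : Moves S Z K₂ := by
      refine ⟨by rwa [hSK₂], Q, hQR.trans hRK₂, hQp, inf_le_left.trans hKQ, v, hvW.1, hvW.2, ?_⟩
      by_contra hall
      push Not at hall
      haveI hKtn : (Kt.subgroupOf K).Normal := ⟨fun k hk g => hKKt g g.2 k hk⟩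
      let Rs : Sylow p K := (hRp.comap_subtype (K := K)).toSylow hRK.2.2
      obtain ⟨n, hn, c, hc, heq⟩ := exists_frattini Rs (Kt.subgroupOf K) ⟨kv, hkv⟩
      have hnO : (n : G) ∈ Subgroup.normalizer (O : Set G) := mem_normalizer_of_forall fun d hd => by
        have h1 := (Subgroup.mem_normalizer_iff.mp hn (⟨d, hd.2.1⟩ : K)).mp ⟨hd.1, hd.2⟩
        exact ⟨h1.1, h1.2⟩
      have heq' : kv = (n : G) * c := congrArg Subtype.val heq
      have hd : (n : G) * ((c : G) * v * (c : G)⁻¹ * v⁻¹) * (n : G)⁻¹ ∈ Z :=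
        (hN₀W (hNconj _ n.2 _ ((show (c : G) ∈ Kt from hc).2 v hvB))).1
      refine hkvZ ?_
      rw [heq', show (n : G) * c * v * ((n : G) * c)⁻¹ =
        (n : G) * ((c : G) * v * (c : G)⁻¹ * v⁻¹) * (n : G)⁻¹ * ((n : G) * v * (n : G)⁻¹) by group]
      exact mul_mem hd (hall n ⟨n.2, hnO⟩)
    have := hKmin K₂ ⟨hmv, by rw [hSK₂]; exact hKR⟩
    exact (Subgroup.eq_of_le_of_card_ge inf_le_left this).ge.trans inf_le_right
  -- a quadratic element
  obtain ⟨x, hxR, hxO, hxq⟩ : ∃ x ∈ R, x ∉ O ∧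
      ∀ b ∈ B, x * (x * b * x⁻¹ * b⁻¹) * x⁻¹ * (x * b * x⁻¹ * b⁻¹)⁻¹ ∈ N₀ := by
    by_cases hJR : J ≤ R
    · exact quadratic_of_replacement hp (S := (S : Subgroup G)) hZdef inf_le_left hRp
        (fun A hA => (le_sSup hA).trans (hJeq ▸ hJR)) hBO inf_le_left hRK.1 hKB hKO
        (hN₀W.trans inf_le_left) hN₀B hKN₀ hcomm hcent hvW.1 le_rfl ⟨kv, hkv, hkvZ⟩
    set N := J ⊓ Subgroup.normalizer (R : Set G) with hN
    obtain ⟨j, hjN, hjR⟩ : ∃ j ∈ N, j ∉ R := by
      obtain ⟨w, hw, hwR, hwN⟩ := exists_normalizing (p := p) (S.2.to_le (sup_le inf_le_left hJS))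
        (le_sup_left : R ≤ R ⊔ J) (fun h => hJR (h.symm ▸ le_sup_right))
      have hw' : w ∈ ((R ⊔ J : Subgroup G) : Set G) := hw
      rw [Subgroup.coe_mul_of_left_le_normalizer_right R J (inf_le_left.trans hSJ)] at hw'
      obtain ⟨r, hr, j, hj, rfl⟩ := hw'
      refine ⟨j, ⟨hj, ?_⟩, fun h => hwR (mul_mem hr h)⟩
      have := mul_mem (inv_mem (Subgroup.le_normalizer hr : r ∈ Subgroup.normalizer (R : Set G))) hwN
      simpa using this
    rcases quadratic_or_invariant (N := N) hBO inf_le_left hRK.1 hKB hKO hKN₀ inf_le_right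
        (fun n hn => mem_normalizer_of_forall fun d hd => by
          rw [hJcent n hn.1 d (hN₀W hd).1, mul_inv_cancel_right]; exact hd) hcomm with hall | h
    swap
    · exact h
    exfalso
    set M₁ := K ⊔ N with hM₁
    set Bi := Subgroup.closure {x | ∃ g ∈ M₁, x ∈ conjOf g B} with hBi
    have hBiO : Bi ≤ O := (Subgroup.closure_le _).2 fun x ⟨g, hg, hx⟩ => hall g hg hx
    have hBiM : M₁ ≤ Subgroup.normalizer (Bi : Set G) := fun g hg => mem_normalizer_closure (by
      rintro x ⟨g', hg', hx⟩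
      refine Subgroup.subset_closure ⟨g * g', mul_mem hg hg', ?_⟩
      rw [← conjOf_conjOf]
      exact conj_mem_conjOf hx)
    have hvBi : v ∈ Bi := Subgroup.subset_closure ⟨1, one_mem _, by rw [conjOf_one]; exact hvB⟩
    have hkvBi : kv * v * kv⁻¹ ∈ Bi :=
      Subgroup.subset_closure ⟨kv, Subgroup.mem_sup_left hkv, conj_mem_conjOf hvB⟩
    set R₁ := (S : Subgroup G) ⊓ M₁ with hR₁
    have hRR₁ : R ≤ R₁ := le_inf inf_le_left (hRK.1.trans le_sup_left)
    have hlt : Nat.card R < Nat.card R₁ := by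
      refine lt_of_le_of_ne (Subgroup.card_le_of_le hRR₁) fun h => hjR ?_
      rw [Subgroup.eq_of_le_of_card_ge hRR₁ h.ge]
      exact ⟨hJS hjN.1, Subgroup.mem_sup_right hjN⟩
    obtain ⟨R', hR', hR₁R'⟩ := exists_sylowIn_ge (inf_le_right : R₁ ≤ M₁) (isPGroup_inf (S := S) M₁)
    obtain ⟨g, hg⟩ := exists_conjOf_le hR'.2.1 S
    obtain ⟨n, hn, hn'⟩ := hbig R₁ g (hRbig.trans hlt) inf_le_left ((conjOf_mono hR₁R').trans hg)
    have hBiR₁ : Bi ≤ R₁ := hBiO.trans (inf_le_left.trans hRR₁)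
    have hS₂ : SylowIn p ((S : Subgroup G) ⊓ conjOf g M₁) (conjOf g M₁) :=
      sylowIn_of_card_le (sylowIn_conjOf hR' g) inf_le_right (isPGroup_inf _)
        (Subgroup.card_le_of_le (le_inf hg (conjOf_mono hR'.1)))
    have hmv : Moves S Z (conjOf g M₁) := by
      refine ⟨hS₂, conjOf g Bi, conjOf_mono ((hBiR₁.trans inf_le_right)),
        ((hRp.to_le (hBiO.trans inf_le_left)).map _), ?_, g * v * g⁻¹, ?_, conj_mem_conjOf hvBi,
        g * kv * g⁻¹, conj_mem_conjOf (Subgroup.mem_sup_left hkv), ?_⟩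
      · rw [normalizer_conjOf]
        exact conjOf_mono hBiM
      · rw [← hn' v (hBiR₁ hvBi)]
        exact (Subgroup.mem_normalizer_iff.mp hn v).mp hvW.1
      · rw [show g * kv * g⁻¹ * (g * v * g⁻¹) * (g * kv * g⁻¹)⁻¹ = g * (kv * v * kv⁻¹) * g⁻¹ by group,
          ← hn' _ (hBiR₁ hkvBi)]
        exact fun h => hkvZ ((Subgroup.mem_normalizer_iff.mp hn _).mpr h)
    have h1 : Nat.card R' ≤ Nat.card ↥((S : Subgroup G) ⊓ conjOf g M₁) := by
      rw [← card_conjOf g R']
      exact Subgroup.card_le_of_le (le_inf hg (conjOf_mono hR'.1))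
    have h2 := hRcard _ hmv
    have h3 := Subgroup.card_le_of_le hR₁R'
    exact lt_irrefl _ (((h3.trans h1).trans h2).trans_lt hlt)
  -- the subgroup stabilizing `Z ∩ Q`
  set K₁ := K ⊓ Subgroup.normalizer (W : Set G) with hK₁
  have hK₁K : K₁ < K := lt_of_le_of_ne inf_le_left fun h => by
    have h1 : k₀ ∈ K₁ := h.symm ▸ hk₀
    exact hk₀z ((Subgroup.mem_normalizer_iff.mp h1.2 z).mp ⟨hzZ, hzQ⟩).1
  have hmaxK : ∀ L : Subgroup G, R ≤ L → L < K → L ≤ K₁ := by
    intro L hRL hLK l hl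
    refine ⟨hLK.le hl, mem_normalizer_of_forall fun d hd =>
      ⟨?_, (Subgroup.mem_normalizer_iff.mp (hKQ (hLK.le hl)) d).mp hd.2⟩⟩
    by_contra hnot
    have hSL : (S : Subgroup G) ⊓ L = R :=
      le_antisymm (inf_le_inf_left _ hLK.le) (le_inf inf_le_left hRL)
    have hsyl : SylowIn p R L := ⟨hRL, hRp, fun h => hRK.2.2 (h.trans (Dvd.intro _
      (Subgroup.relIndex_mul_relIndex R L K hRL hLK.le)))⟩
    have hmv : Moves S Z L :=
      ⟨by rwa [hSL], Q, hQR.trans hRL, hQp, hLK.le.trans hKQ, d, hd.1, hd.2, l, hl, hnot⟩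
    exact not_le.2 (Set.ncard_lt_ncard (SetLike.coe_ssubset_coe.mpr hLK) (Set.toFinite _))
      (hKmin L ⟨hmv, by rw [hSL]; exact hKR⟩)
  -- fusion inside the normalizer of `Z ∩ Q`
  have hJW : J ≤ Subgroup.normalizer (W : Set G) := fun j hj => mem_normalizer_of_forall fun d hd => by
    rw [hJcent j hj d hd.1, mul_inv_cancel_right]; exact hd
  have hWtop : Subgroup.normalizer (W : Set G) ≠ ⊤ := fun h =>
    hk₀z ((Subgroup.mem_normalizer_iff.mp (h.symm ▸ Subgroup.mem_top k₀ : k₀ ∈ Subgroup.normalizer (W : Set G))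
      z).mp ⟨hzZ, hzQ⟩).1
  have hRL : R ≤ (S : Subgroup G) ⊓ Subgroup.normalizer (W : Set G) := le_inf inf_le_left hRW
  rcases data_or_controlled IH S hbig hWtop hJW (hRbig.trans_le (Subgroup.card_le_of_le hRL)) with hdone | hctrl
  · exact hdone
  obtain ⟨hinv, c, hc, hc1, hcp, n, hn, s, hs, hnc⟩ := conclusion_of_section hp (H := H) (K := K) (K₁ := K₁)
    (R := R) (B := B) (N₀ := N₀) (A₀ := Z ⊓ B) hRK (le_inf hRK.1 hRW) hK₁K hmaxK (inf_le_left.trans hSH) hBR
    hN₀B hKB hKN₀ hcomm hpow inf_le_right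
    ⟨⟨fun a b => Subtype.ext (hJcent a (hZJ a.2.1) b b.2.1)⟩⟩
    (fun g hg => mem_normalizer_of_forall fun d hd =>
      ⟨((Subgroup.mem_normalizer_iff.mp hg.2 d).mp ⟨hd.1, hBQ hd.2⟩).1,
        (Subgroup.mem_normalizer_iff.mp (hKB hg.1) d).mp hd.2⟩)
    (v := v) ⟨hvW.1, hvB⟩ hvR le_rfl
    ⟨x, hxR, hxq, by
      by_contra hall
      push Not at hall
      exact hxO ⟨hxR, hRK.1 hxR, hall⟩⟩
    (fun U hU h hh hhU => hctrl U (hU.trans hRL) h hh.2 hhU)
  exact ⟨hinv, c, hc.1, hc1, hcp, n, hn, s, hs, hnc⟩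

omit [Finite G] in
theorem failureData_of_not_controlled (hp : p ≠ 2) :
    ∀ (n : ℕ) (G : Type u) [Group G] [Finite G], Nat.card G = n →
      ∀ S : Sylow p G, ¬ FusControlled S → FailureData S := by
  intro n
  induction n using Nat.strong_induction_on with
  | _ n ih =>
    intro G _ _ hn S hS
    refine failureData_step hp (fun L hL SL hSL => ih (Nat.card L) ?_ L rfl SL hSL) S hS
    rw [← hn]
    exact lt_of_le_of_ne (Subgroup.card_le_card_group L) fun h => hL (Subgroup.eq_top_of_card_eq L h)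

/-- The automorphisms induced on a subgroup of order `p` by a group containing an element acting as a generator. -/
theorem relIndex_eq_pred {H : Subgroup G} {c n : G} (hc1 : c ≠ 1) (hcp : c ^ p = 1) (hn : n ∈ H)
    {s : (ZMod p)ˣ} (hs : ∀ x : (ZMod p)ˣ, x ∈ Subgroup.zpowers s) (hnc : n * c * n⁻¹ = c ^ (s : ZMod p).val) :
    (H ⊓ Subgroup.centralizer ((Subgroup.zpowers c : Subgroup G) : Set G)).relIndex
      (H ⊓ Subgroup.normalizer ((Subgroup.zpowers c : Subgroup G) : Set G)) = p - 1 := by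
  classical
  set C := Subgroup.zpowers c with hC
  have ho : orderOf c = p := orderOf_eq_prime hcp hc1
  set N := H ⊓ Subgroup.normalizer (C : Set G) with hN
  have hnN : n ∈ N := by
    refine ⟨hn, mem_normalizer_of_forall fun d hd => ?_⟩
    obtain ⟨i, rfl⟩ := hd
    rw [← conj_zpow, hnc]
    exact zpow_mem (pow_mem (Subgroup.mem_zpowers c) _) _
  let φ : N →* MulAut C := (Subgroup.normalizerMonoidHom C).comp (Subgroup.inclusion inf_le_right)
  have hker : φ.ker = (H ⊓ Subgroup.centralizer (C : Set G)).subgroupOf N := by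
    ext g
    rw [MonoidHom.mem_ker, Subgroup.mem_subgroupOf]
    have h1 : φ g = 1 ↔ (Subgroup.inclusion inf_le_right g : Subgroup.normalizer (C : Set G)) ∈
        (Subgroup.normalizerMonoidHom C).ker := MonoidHom.mem_ker.symm
    rw [h1, Subgroup.normalizerMonoidHom_ker, Subgroup.mem_subgroupOf]
    exact ⟨fun h => ⟨g.2.1, h⟩, fun h => h.2⟩
  have hsurj : φ.range = ⊤ := by
    rw [eq_top_iff]
    intro f _
    obtain ⟨j, hj, hjc⟩ : ∃ j : ℕ, j < p ∧ c ^ j = (f ⟨c, Subgroup.mem_zpowers c⟩ : G) := by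
      obtain ⟨j, hj⟩ := Subgroup.mem_zpowers_iff.mp (f ⟨c, Subgroup.mem_zpowers c⟩).2
      refine ⟨(j % (p : ℤ)).toNat, ?_, ?_⟩
      · have := Int.emod_lt_of_pos j (show (0 : ℤ) < p by exact_mod_cast hpf.out.pos)
        have := hpf.out.pos
        omega
      · rw [← zpow_natCast, Int.toNat_of_nonneg (Int.emod_nonneg _ (by exact_mod_cast hpf.out.ne_zero)),
          ← ho, zpow_mod_orderOf, hj]
    have hj0 : (j : ZMod p) ≠ 0 := by
      intro h
      have hj' : j = 0 := Nat.eq_zero_of_dvd_of_lt ((ZMod.natCast_eq_zero_iff j p).1 h) hj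
      refine hc1 ?_
      have : f ⟨c, Subgroup.mem_zpowers c⟩ = 1 := Subtype.ext (by rw [← hjc, hj', pow_zero]; rfl)
      exact congrArg Subtype.val ((MulEquiv.map_eq_one_iff f).mp this)
    obtain ⟨i, hi⟩ : ∃ i : ℕ, s ^ i = Units.mk0 (j : ZMod p) hj0 :=
      (Submonoid.mem_powers_iff _ _).mp (mem_powers_iff_mem_zpowers.mpr (hs _))
    have hpowi : ∀ i : ℕ, n ^ i * c * (n ^ i)⁻¹ = c ^ ((s : ZMod p).val ^ i) := by
      intro i
      induction i with
      | zero => simp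
      | succ i ih =>
        rw [pow_succ' n, pow_succ (s : ZMod p).val]
        calc n * n ^ i * c * (n * n ^ i)⁻¹ = n * (n ^ i * c * (n ^ i)⁻¹) * n⁻¹ := by group
          _ = _ := by rw [ih, ← conj_pow, hnc, ← pow_mul, mul_comm]
    refine ⟨⟨n, hnN⟩ ^ i, ?_⟩
    refine MulEquiv.ext fun d => ?_
    have hbase : φ (⟨n, hnN⟩ ^ i) ⟨c, Subgroup.mem_zpowers c⟩ = f ⟨c, Subgroup.mem_zpowers c⟩ := by
      apply Subtype.ext
      show n ^ i * c * (n ^ i)⁻¹ = (f ⟨c, Subgroup.mem_zpowers c⟩ : G)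
      rw [hpowi, ← hjc, pow_eq_pow_iff_modEq, ho, ← ZMod.natCast_eq_natCast_iff]
      push_cast
      rw [ZMod.natCast_zmod_val, ← Units.val_pow_eq_pow_val, hi]
      rfl
    obtain ⟨k, hk⟩ := Subgroup.mem_zpowers_iff.mp d.2
    have hd : d = (⟨c, Subgroup.mem_zpowers c⟩ : C) ^ k := Subtype.ext (by simp [hk])
    rw [hd, map_zpow, map_zpow, hbase]
  haveI : IsCyclic C := inferInstance
  have hcard : Nat.card (MulAut C) = p - 1 := by
    rw [IsCyclic.card_mulAut, Nat.card_zpowers, ho, Nat.totient_prime hpf.out]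
  rw [← hcard, ← Subgroup.card_top (G := MulAut C), ← hsurj, ← Subgroup.index_ker, hker]
  rfl

end CfsgLib.ZJFailure
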